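import Cfsg.Agent.H995.Co1F.Shapes
import Cfsg.Agent.H995.Co1F.Trip
import Cfsg.Agent.H777.Ore.Base
import Cfsg.Prelude.Def_Spor_Conway

/-!
# Every element of `Co1` is a product of four elements with square one
-/

set_option autoImplicit false

namespace Cfsg.Agent.H995.Co1F

open Cfsg
open Cfsg.Agent.MonsterX.FrameStab (FixesFrame)

/-- Every element of `Co0` is conjugate to a product of four elements with central square. -/
theorem four_co0 (g : Co0) : ∃ u a b c d : Co0, Sq a ∧ Sq b ∧ Sq c ∧ Sq d ∧ u * g * u⁻¹ = a * b * c * d := by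
  obtain ⟨u, t, h, ht, hh, hg⟩ := step good_all g
  obtain ⟨x, y, z, hx, hy, hz, hxyz⟩ := triple hh
  refine ⟨u, t, x, y, z, Sq.of_one ht, hx, hy, hz, ?_⟩
  rw [hg, hxyz]
  group

end Cfsg.Agent.H995.Co1F

namespace Cfsg.Agent.H995

open Cfsg Co1F

/-- **Every element of `Co1` is a product of four elements with square one.** -/
theorem four_Co1 {S : Type*} [Group S] (h : Spor.IsoCo1 S) : Cfsg.Agent.H777.Ore.Inv4 S := by
  obtain ⟨e⟩ := h
  intro s
  obtain ⟨g, hg⟩ := QuotientGroup.mk'_surjective (Subgroup.center Co0) (e s)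
  obtain ⟨u, a, b, c, d, ha, hb, hc, hd, hu⟩ := four_co0 g
  have hsq : ∀ x : Co0, Sq x → ∀ w : S, w = e.symm (QuotientGroup.mk' (Subgroup.center Co0) (u⁻¹ * x * u)) → w * w = 1 := by
    intro x hx w hw
    rw [hw, ← map_mul, ← map_mul]
    have h1 : u⁻¹ * x * u * (u⁻¹ * x * u) ∈ Subgroup.center Co0 := by
      have := hx.conj u⁻¹
      rw [inv_inv] at this
      exact this
    rw [show QuotientGroup.mk' (Subgroup.center Co0) (u⁻¹ * x * u * (u⁻¹ * x * u)) = 1 from
      (QuotientGroup.eq_one_iff _).2 h1, map_one]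
  refine ⟨_, _, _, _, hsq a ha _ rfl, hsq b hb _ rfl, hsq c hc _ rfl, hsq d hd _ rfl, ?_⟩
  rw [← map_mul, ← map_mul, ← map_mul, ← map_mul, ← map_mul, ← map_mul]
  have h2 : u⁻¹ * a * u * (u⁻¹ * b * u) * (u⁻¹ * c * u) * (u⁻¹ * d * u) = g := by
    have : u⁻¹ * a * u * (u⁻¹ * b * u) * (u⁻¹ * c * u) * (u⁻¹ * d * u) = u⁻¹ * (a * b * c * d) * u := by group
    rw [this, ← hu]
    group
  rw [h2, hg, MulEquiv.symm_apply_apply]

end Cfsg.Agent.H995
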