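import Cfsg.Agent.H995.Co1F.Std

/-!
# All the vectors of norm 64 are good
-/

set_option autoImplicit false

namespace Cfsg.Agent.H995.Co1F

open Cfsg
open Cfsg.Agent.SporadicA.Co0Mono
open Cfsg.Agent.SporadicStructure.Co0Base (e8 e8_coe minus3_mem)
open Cfsg.Agent.Leech.Code Cfsg.Agent.Leech.Basic
open Cfsg.Agent.SporadicA.GolayBase (card_symmDiff_add card_of_mem_supports)

/-- `(-3, 1^23)` -/
def lam (o : GolayPt) : leechLattice := ⟨_, minus3_mem o⟩

theorem lam_self (o : GolayPt) : (lam o : GolayPt → ℤ) o = -3 := if_pos rfl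

theorem lam_ne {o i : GolayPt} (h : i ≠ o) : (lam o : GolayPt → ℤ) i = 1 := if_neg h

/-- the sign change at a word -/
theorem exists_sign {c : Finset GolayPt} (hc : c ∈ Words) : ∃ s : Co0, Cfsg.Agent.MonsterX.FrameStab.FixesFrame s ∧
    ∀ (v : leechLattice) (i : GolayPt), ((s • v : leechLattice) : GolayPt → ℤ) i =
      if i ∈ c then -(v : GolayPt → ℤ) i else (v : GolayPt → ℤ) i := by
  refine ⟨signCo0 ⟨ind c, (mem_words_iff c).1 hc⟩, fixes_sign _, fun v i => ?_⟩
  rw [signCo0_smul, signMap_apply]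
  show sgn (ind c i) * _ = _
  rw [ind_apply]
  by_cases hi : i ∈ c
  · rw [if_pos hi, if_pos hi, sgn_one, neg_one_mul]
  · rw [if_neg hi, if_neg hi, sgn_zero, one_mul]

/-! ### even subsets of a 16-set -/

theorem reduce16 {A : Finset GolayPt} (hA : A ∈ Words) (hA16 : A.card = 16) : ∀ (n : ℕ) (N : Finset GolayPt), N ⊆ A →
    N.card = n → Even n → ∃ c ∈ Words, (symmDiff N (c ∩ A)).card ≤ 2 := by
  intro n
  induction n using Nat.strong_induction_on with
  | _ n ih =>
    intro N hNA hN hn
    by_cases h2 : n ≤ 2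
    · refine ⟨∅, empty_mem, ?_⟩
      rw [Finset.empty_inter]
      have : symmDiff N ∅ = N := symmDiff_bot N
      rw [this, hN]; exact h2
    · have h4 : 4 ≤ n := by
        rw [Nat.even_iff] at hn
        omega
      obtain ⟨T, hTN, hT⟩ := Finset.exists_subset_card_eq (s := N) (n := 4) (by omega)
      have hOc : Aᶜ.card = 8 := by rw [Finset.card_compl, card_golayPt, hA16]
      obtain ⟨o, ho⟩ : (Aᶜ).Nonempty := by rw [← Finset.card_pos, hOc]; norm_num
      have hoA : o ∉ A := Finset.mem_compl.1 ho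
      have hoT : o ∉ T := fun h => hoA (hNA (hTN h))
      have h5 : (insert o T).card = 5 := by rw [Finset.card_insert_of_notMem hoT, hT]
      obtain ⟨b, ⟨hb, hsub⟩, -⟩ := steiner.2 _ h5
      have hb8 : b.card = 8 := hb.2
      have hbW : b ∈ Words := hb.1
      have hTb : T ⊆ b := fun x hx => hsub (Finset.mem_insert_of_mem hx)
      have hob : o ∈ b := hsub (Finset.mem_insert_self o T)
      have hTA : T ⊆ b ∩ A := fun x hx => Finset.mem_inter.2 ⟨hTb hx, hNA (hTN hx)⟩
      have hev := even_inter hbW hA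
      have hlt : (b ∩ A).card < 8 := by
        rw [← hb8]
        apply Finset.card_lt_card
        refine ⟨Finset.inter_subset_left, fun h => hoA (Finset.mem_inter.1 (h hob)).2⟩
      have hNb : 4 ≤ (N ∩ (b ∩ A)).card := by
        rw [← hT]
        exact Finset.card_le_card fun x hx => Finset.mem_inter.2 ⟨hTN hx, hTA hx⟩
      have hs := card_symmDiff_add N (b ∩ A)
      rw [Nat.even_iff] at hev hn
      obtain ⟨c, hc, hc2⟩ := ih (symmDiff N (b ∩ A)).card (by omega) (symmDiff N (b ∩ A))
        (fun x hx => by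
          rw [Finset.mem_symmDiff] at hx
          rcases hx with ⟨h, -⟩ | ⟨h, -⟩
          · exact hNA h
          · exact (Finset.mem_inter.1 h).2) rfl (by rw [Nat.even_iff]; omega)
      refine ⟨symmDiff b c, symmDiff_mem hbW hc, ?_⟩
      have e : symmDiff N (symmDiff b c ∩ A) = symmDiff (symmDiff N (b ∩ A)) (c ∩ A) := by
        ext x
        simp only [Finset.mem_symmDiff, Finset.mem_inter]
        tauto
      rw [e]
      exact hc2

/-- `(2^16, 0^8)` -/
theorem good_sixteen {v : leechLattice} {A : Finset GolayPt} (hA : A ∈ Words) (hA16 : A.card = 16)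
    (h2 : ∀ i ∈ A, (v : GolayPt → ℤ) i = 2 ∨ (v : GolayPt → ℤ) i = -2)
    (h0 : ∀ i, i ∉ A → (v : GolayPt → ℤ) i = 0) : Good v := by
  classical
  have hO : Aᶜ ∈ octads := ⟨compl_mem hA, by rw [Finset.card_compl, card_golayPt, hA16]⟩
  have hO8 : Aᶜ.card = 8 := hO.2
  set N : Finset GolayPt := A.filter fun i => (v : GolayPt → ℤ) i = -2 with hN
  have hNA : N ⊆ A := Finset.filter_subset _ _
  have hsum : ∑ i, (v : GolayPt → ℤ) i = 32 - 4 * N.card := by
    have e : ∀ i, (v : GolayPt → ℤ) i = (if i ∈ A then 2 else 0) - 4 * (if i ∈ N then 1 else 0) := by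
      intro i
      by_cases hi : i ∈ A
      · by_cases hi' : (v : GolayPt → ℤ) i = -2
        · rw [if_pos hi, if_pos (Finset.mem_filter.2 ⟨hi, hi'⟩), hi']; norm_num
        · rw [if_pos hi, if_neg (show i ∉ N from fun h => hi' (Finset.mem_filter.1 h).2), (h2 i hi).resolve_right hi']
          norm_num
      · rw [if_neg hi, if_neg (show i ∉ N from fun h => hi (Finset.mem_filter.1 h).1), h0 i hi]; norm_num
    rw [Finset.sum_congr rfl fun i _ => e i, Finset.sum_sub_distrib, ← Finset.mul_sum, Finset.sum_ite_mem,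
      Finset.sum_ite_mem, Finset.univ_inter, Finset.univ_inter, Finset.sum_const, Finset.sum_const, hA16]
    simp
  obtain ⟨o, ho⟩ : (Aᶜ).Nonempty := by rw [← Finset.card_pos, hO8]; norm_num
  have hoA : o ∉ A := Finset.mem_compl.1 ho
  have hL := (isLeech_zero_of v.2 (i := o) (by rw [h0 o hoA]; rfl)).sum
  rw [hsum] at hL
  have hNe : Even N.card := by
    rw [Nat.even_iff]
    unfold Int.ModEq at hL
    omega
  obtain ⟨c, hc, hc2⟩ := reduce16 hA hA16 N.card N hNA rfl hNe
  set M := symmDiff N (c ∩ A) with hM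
  have hMe : Even M.card := by
    have h3 := card_symmDiff_add N (c ∩ A)
    have h4 := even_inter hc hA
    rw [← hM] at h3
    rw [Nat.even_iff] at h4 hNe ⊢
    omega
  obtain ⟨s, hs, hs'⟩ := exists_sign hc
  apply Good.of_smul hs
  have hw1 : ∀ i ∈ M, ((s • v : leechLattice) : GolayPt → ℤ) i = -2 := by
    intro i hi
    rw [hs']
    rw [hM, Finset.mem_symmDiff, Finset.mem_inter] at hi
    rcases hi with ⟨h3, h4⟩ | ⟨⟨h3, h4⟩, h5⟩
    · have hiA := hNA h3
      rw [if_neg (fun h => h4 ⟨h, hiA⟩)]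
      exact (Finset.mem_filter.1 h3).2
    · rw [if_pos h3, (h2 i h4).resolve_right (fun h => h5 (Finset.mem_filter.2 ⟨h4, h⟩))]
  have hw2 : ∀ i ∈ A, i ∉ M → ((s • v : leechLattice) : GolayPt → ℤ) i = 2 := by
    intro i hi hiM
    rw [hs']
    rw [hM, Finset.mem_symmDiff, Finset.mem_inter] at hiM
    by_cases h3 : i ∈ c
    · rw [if_pos h3]
      have h4 : i ∈ N := by
        by_contra h
        exact hiM (Or.inr ⟨⟨h3, hi⟩, h⟩)
      rw [(Finset.mem_filter.1 h4).2]; norm_num
    · rw [if_neg h3]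
      have h4 : i ∉ N := fun h => hiM (Or.inl ⟨h, fun h' => h3 h'.1⟩)
      exact (h2 i hi).resolve_right (fun h => h4 (Finset.mem_filter.2 ⟨hi, h⟩))
  have hw0 : ∀ i, i ∉ A → ((s • v : leechLattice) : GolayPt → ℤ) i = 0 := by
    intro i hi
    rw [hs', h0 i hi]
    simp
  have hMA : M ⊆ A := by
    intro i hi
    rw [hM, Finset.mem_symmDiff, Finset.mem_inter] at hi
    rcases hi with ⟨h3, h4⟩ | ⟨⟨h3, h4⟩, h5⟩
    · exact hNA h3
    · exact h4
  generalize s • v = w at hw0 hw1 hw2 ⊢
  have hcoe : ∀ (l : leechLattice) (i : GolayPt), ((w - 2 • l : leechLattice) : GolayPt → ℤ) i =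
      (w : GolayPt → ℤ) i - 2 * (l : GolayPt → ℤ) i := by
    intro l i
    rw [two_smul, AddSubgroup.coe_sub, AddSubgroup.coe_add, Pi.sub_apply, Pi.add_apply]
    ring
  have hcong : ∀ l : leechLattice, Cong w (w - 2 • l) := fun l => ⟨l, by abel⟩
  have hM02 : M.card = 0 ∨ M.card = 2 := by
    rw [Nat.even_iff] at hMe
    omega
  rcases hM02 with hM0 | hM2
  · have hM0' : M = ∅ := Finset.card_eq_zero.1 hM0
    refine Good.of_cong (hcong (lam o)) (good_six (v := w - 2 • lam o) hO ho ?_ ?_ ?_)
    · left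
      rw [hcoe, lam_self, hw0 o hoA]; norm_num
    · intro i hi hio
      right
      rw [hcoe, lam_ne hio, hw0 i (Finset.mem_compl.1 hi)]; norm_num
    · intro i hi
      have hiA : i ∈ A := by
        by_contra h
        exact hi (Finset.mem_compl.2 h)
      rw [hcoe, lam_ne (show i ≠ o from fun h => hoA (h ▸ hiA)), hw2 i hiA (by rw [hM0']; simp)]; norm_num
  · obtain ⟨p, q, hpq, hMpq⟩ := Finset.card_eq_two.1 hM2
    have hp : p ∈ M := by rw [hMpq]; simp
    have hq : q ∈ M := by rw [hMpq]; simp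
    have hpA := hMA hp
    have hqA := hMA hq
    have hmem : ∀ i, i ∈ M ↔ i = p ∨ i = q := fun i => by rw [hMpq]; simp
    refine Good.of_cong (hcong (lam p)) (good_eight (v := w - 2 • lam p) hO (p := p) (q := q)
      (fun h => Finset.mem_compl.1 h hpA) (fun h => Finset.mem_compl.1 h hqA) hpq ?_ ?_ ?_ ?_)
    · left
      rw [hcoe, lam_self, hw1 p hp]; norm_num
    · right
      rw [hcoe, lam_ne (Ne.symm hpq), hw1 q hq]; norm_num
    · intro i hi
      have hiA := Finset.mem_compl.1 hi
      right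
      rw [hcoe, lam_ne (show i ≠ p from fun h => hiA (h ▸ hpA)), hw0 i hiA]; norm_num
    · intro i hi hip hiq
      have hiA : i ∈ A := by
        by_contra h
        exact hi (Finset.mem_compl.2 h)
      rw [hcoe, lam_ne hip, hw2 i hiA (fun h => by
        rcases (hmem i).1 h with h | h
        · exact hip h
        · exact hiq h)]
      norm_num

/-! ### even vectors -/

theorem even_sum {x a : GolayPt → ℤ} {A : Finset GolayPt} (hx : ∀ i, x i = 0 + 2 * chi A i + 4 * a i) :
    sqNorm x = 4 * A.card + 16 * ∑ i, (if i ∈ A then a i * (a i + 1) else a i ^ 2) := by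
  have e : sqNorm x = ∑ i, (4 * chi A i + 16 * (if i ∈ A then a i * (a i + 1) else a i ^ 2)) := by
    refine Finset.sum_congr rfl fun i _ => ?_
    rw [hx i]
    unfold chi
    by_cases hi : i ∈ A
    · simp only [if_pos hi]; ring
    · simp only [if_neg hi]; ring
  rw [e, Finset.sum_add_distrib, ← Finset.mul_sum, ← Finset.mul_sum, sum_chi]

theorem prod_nonneg (a : ℤ) : 0 ≤ a * (a + 1) := by
  rcases le_or_gt 0 a with h | h
  · positivity
  · exact mul_nonneg_of_nonpos_of_nonpos h.le (by omega)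

theorem prod_zero {a : ℤ} (h : a * (a + 1) = 0) : a = 0 ∨ a = -1 := by
  rcases mul_eq_zero.1 h with h | h
  · exact Or.inl h
  · right; omega

theorem prod_even (a : ℤ) : a * (a + 1) ≠ 1 := by
  intro h
  have := Int.even_mul_succ_self a
  rw [h] at this
  exact absurd this (by decide)

theorem prod_two {a : ℤ} (h : a * (a + 1) = 2) : a = 1 ∨ a = -2 := by
  have h1 : (a - 1) * (a + 2) = 0 := by linarith
  rcases mul_eq_zero.1 h1 with h | h
  · left; omega
  · right; omega

theorem sq_ne_two (a : ℤ) : a ^ 2 ≠ 2 := by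
  intro h
  have h1 : a ≤ 1 := by nlinarith
  have h2 : -1 ≤ a := by nlinarith
  interval_cases a <;> omega

theorem sq_one {a : ℤ} (h : a ^ 2 = 1) : a = 1 ∨ a = -1 :=
  mul_self_eq_one_iff.1 ((sq a).symm.trans h)

theorem good_even {v : leechLattice} (hv : IsLeech 0 (v : GolayPt → ℤ)) (hn : sqNorm (v : GolayPt → ℤ) = 64) :
    Good v := by
  classical
  obtain ⟨A, hA, a, ha, -⟩ := exists_form hv (Or.inl rfl)
  have hsum0 := even_sum ha
  rw [hn] at hsum0
  obtain ⟨f, hf⟩ : ∃ f : GolayPt → ℤ, f = fun i => if i ∈ A then a i * (a i + 1) else a i ^ 2 := ⟨_, rfl⟩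
  have hsum : (64 : ℤ) = 4 * A.card + 16 * ∑ i, f i := by rw [hf]; exact hsum0
  clear hsum0
  have hf0 : ∀ i, 0 ≤ f i := by
    intro i
    rw [hf]
    by_cases hi : i ∈ A
    · simp only [if_pos hi]; exact prod_nonneg _
    · simp only [if_neg hi]; positivity
  have hfA : ∀ i ∈ A, f i = a i * (a i + 1) := fun i hi => by rw [hf]; exact if_pos hi
  have hfn : ∀ i, i ∉ A → f i = a i ^ 2 := fun i hi => by rw [hf]; exact if_neg hi
  have hvA : ∀ i ∈ A, (v : GolayPt → ℤ) i = 2 + 4 * a i := fun i hi => by rw [ha i, chi_mem hi]; ring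
  have hvn : ∀ i, i ∉ A → (v : GolayPt → ℤ) i = 4 * a i := fun i hi => by rw [ha i, chi_not_mem hi]; ring
  have hA0 : ∀ i ∈ A, f i = 0 → (v : GolayPt → ℤ) i = 2 ∨ (v : GolayPt → ℤ) i = -2 := by
    intro i hi h
    rw [hfA i hi] at h
    rw [hvA i hi]
    rcases prod_zero h with h | h <;> rw [h]
    · left; norm_num
    · right; norm_num
  have hn0 : ∀ i, i ∉ A → f i = 0 → (v : GolayPt → ℤ) i = 0 := by
    intro i hi h
    rw [hfn i hi] at h
    rw [hvn i hi, pow_eq_zero_iff (two_ne_zero) |>.1 h, mul_zero]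
  have hn1 : ∀ i, i ∉ A → f i = 1 → (v : GolayPt → ℤ) i = 4 ∨ (v : GolayPt → ℤ) i = -4 := by
    intro i hi h
    rw [hfn i hi] at h
    rw [hvn i hi]
    rcases sq_one h with h | h <;> rw [h]
    · left; norm_num
    · right; norm_num
  have hother : ∀ (S : ℤ) (p : GolayPt), ∑ i, f i = S → f p = S → ∀ i, i ≠ p → f i = 0 := by
    intro S p hS hp i hi
    have h1 : f p + ∑ i ∈ Finset.univ.erase p, f i = S := by
      rw [Finset.add_sum_erase _ _ (Finset.mem_univ p)]; exact hS
    have h2 : ∑ i ∈ Finset.univ.erase p, f i = 0 := by omega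
    rw [Finset.sum_eq_zero_iff_of_nonneg fun i _ => hf0 i] at h2
    exact h2 i (Finset.mem_erase.2 ⟨hi, Finset.mem_univ i⟩)
  have hS0 : 0 ≤ ∑ i, f i := Finset.sum_nonneg fun i _ => hf0 i
  rcases card_of_mem_supports hA with hc | hc | hc | hc | hc
  · -- no odd half coordinates
    have hS : ∑ i, f i = 4 := by rw [hc] at hsum; push_cast at hsum; omega
    have hAe : A = ∅ := Finset.card_eq_zero.1 hc
    have hnA : ∀ i, i ∉ A := fun i => by rw [hAe]; simp
    by_cases h4 : ∃ p, f p = 4
    · obtain ⟨p, hp⟩ := h4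
      have h1 := hother 4 p hS hp
      rw [hfn p (hnA p)] at hp
      have h2 : a p = 2 ∨ a p = -2 := by
        have : (a p - 2) * (a p + 2) = 0 := by linarith
        rcases mul_eq_zero.1 this with h | h
        · left; omega
        · right; omega
      have h3 : v = e8 p ∨ v = -e8 p := by
        rcases h2 with h2 | h2
        · left
          apply Subtype.ext
          rw [e8_coe]
          funext i
          by_cases hi : i = p
          · rw [hi, Pi.single_eq_same, hvn p (hnA p), h2]; norm_num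
          · rw [Pi.single_eq_of_ne hi, hn0 i (hnA i) (h1 i hi)]
        · right
          apply Subtype.ext
          rw [AddSubgroup.coe_neg, e8_coe]
          funext i
          rw [Pi.neg_apply]
          by_cases hi : i = p
          · rw [hi, Pi.single_eq_same, hvn p (hnA p), h2]; norm_num
          · rw [Pi.single_eq_of_ne hi, hn0 i (hnA i) (h1 i hi), neg_zero]
      rcases h3 with h3 | h3
      · rw [h3]; exact good_e8 p
      · rw [h3]; exact Good.of_cong (cong_neg _) (good_e8 p)
    · push Not at h4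
      have h01 : ∀ i, f i = 0 ∨ f i = 1 := by
        intro i
        have h1 := h4 i
        have h2 : f i ≤ 4 := by
          rw [← hS]
          exact Finset.single_le_sum (fun j _ => hf0 j) (Finset.mem_univ i)
        rw [hfn i (hnA i)] at h1 h2 ⊢
        have h3 : a i ≤ 2 := by nlinarith
        have h5 : -2 ≤ a i := by nlinarith
        generalize a i = b at *
        interval_cases b
        · exact absurd rfl h1
        · right; norm_num
        · left; norm_num
        · right; norm_num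
        · exact absurd rfl h1
      set B := Finset.univ.filter fun i => f i = 1 with hB
      have hBm : ∀ i, i ∈ B ↔ f i = 1 := fun i => by simp [hB]
      have hB4 : B.card = 4 := by
        have e : ∀ i, f i = if i ∈ B then 1 else 0 := by
          intro i
          rcases h01 i with h | h
          · rw [if_neg (fun h' => by rw [(hBm i).1 h'] at h; omega), h]
          · rw [if_pos ((hBm i).2 h), h]
        rw [Finset.sum_congr rfl fun i _ => e i, Finset.sum_ite_mem, Finset.univ_inter, Finset.sum_const] at hS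
        simp at hS
        exact_mod_cast hS
      refine good_four hB4 (fun i hi => hn1 i (hnA i) ((hBm i).1 hi)) (fun i hi => hn0 i (hnA i) ?_)
      rcases h01 i with h | h
      · exact h
      · exact absurd ((hBm i).2 h) hi
  · -- an octad
    have hS : ∑ i, f i = 2 := by rw [hc] at hsum; push_cast at hsum; omega
    have hO : A ∈ octads := ⟨hA, hc⟩
    by_cases h2 : ∃ p, f p = 2
    · obtain ⟨p, hp⟩ := h2
      have h1 := hother 2 p hS hp
      have hpA : p ∈ A := by
        by_contra h
        rw [hfn p h] at hp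
        exact sq_ne_two _ hp
      refine good_six hO hpA ?_ (fun i hi hip => hA0 i hi (h1 i hip)) (fun i hi => hn0 i hi (h1 i ?_))
      · rw [hfA p hpA] at hp
        rw [hvA p hpA]
        rcases prod_two hp with h | h <;> rw [h]
        · left; norm_num
        · right; norm_num
      · rintro rfl
        exact hi hpA
    · push Not at h2
      obtain ⟨p, q, hpq, hp, hq, h0⟩ := exists_of_sum_eq_two hf0 h2 hS
      have hpA : p ∉ A := fun h => prod_even _ ((hfA p h).symm.trans hp)
      have hqA : q ∉ A := fun h => prod_even _ ((hfA q h).symm.trans hq)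
      exact good_eight hO hpA hqA hpq (hn1 p hpA hp) (hn1 q hqA hq)
        (fun i hi => hA0 i hi (h0 i (fun h => hpA (h ▸ hi)) (fun h => hqA (h ▸ hi))))
        (fun i hi hip hiq => hn0 i hi (h0 i hip hiq))
  · -- a dodecad
    have hS : ∑ i, f i = 1 := by rw [hc] at hsum; push_cast at hsum; omega
    obtain ⟨p, hp, h0⟩ := exists_of_sum_eq_one hf0 hS
    have hpA : p ∉ A := fun h => prod_even _ ((hfA p h).symm.trans hp)
    exact good_twelve ⟨hA, hc⟩ hpA (hn1 p hpA hp) (fun i hi => hA0 i hi (h0 i (fun h => hpA (h ▸ hi))))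
      (fun i hi hip => hn0 i hi (h0 i hip))
  · -- a 16-set
    have hS : ∑ i, f i = 0 := by rw [hc] at hsum; push_cast at hsum; omega
    rw [Finset.sum_eq_zero_iff_of_nonneg fun i _ => hf0 i] at hS
    exact good_sixteen hA hc (fun i hi => hA0 i hi (hS i (Finset.mem_univ i)))
      (fun i hi => hn0 i hi (hS i (Finset.mem_univ i)))
  · exfalso
    rw [hc] at hsum
    push_cast at hsum
    omega

/-! ### odd vectors -/

theorem odd_nonneg (b : ℤ) : 0 ≤ b * (2 * b + 1) := by
  rcases le_or_gt 0 b with h | h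
  · positivity
  · exact mul_nonneg_of_nonpos_of_nonpos h.le (by omega)

/-- odd vectors with all coordinates `1` modulo `4` -/
theorem good_one {v : leechLattice} {b : GolayPt → ℤ} (hb : ∀ i, (v : GolayPt → ℤ) i = 1 + 4 * b i)
    (hn : sqNorm (v : GolayPt → ℤ) = 64) : Good v := by
  classical
  obtain ⟨f, hf⟩ : ∃ f : GolayPt → ℤ, f = fun i => b i * (2 * b i + 1) := ⟨_, rfl⟩
  have hf0 : ∀ i, 0 ≤ f i := fun i => by rw [hf]; exact odd_nonneg _
  have hS : ∑ i, f i = 5 := by
    have e : sqNorm (v : GolayPt → ℤ) = ∑ i, (1 + 8 * f i) := by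
      refine Finset.sum_congr rfl fun i _ => ?_
      rw [hb i, hf]
      ring
    rw [hn, Finset.sum_add_distrib, ← Finset.mul_sum, Finset.sum_const, Finset.card_univ, card_golayPt,
      show (24 • (1 : ℤ)) = 24 by norm_num] at e
    omega
  have h3 : ∀ i, b i = 0 ∨ b i = 1 ∨ b i = -1 := by
    intro i
    have h2 : f i ≤ 5 := by
      rw [← hS]
      exact Finset.single_le_sum (fun j _ => hf0 j) (Finset.mem_univ i)
    rw [hf] at h2
    simp only at h2
    have h4 : b i ≤ 1 := by nlinarith
    have h5 : -1 ≤ b i := by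
      by_contra h
      push Not at h
      have : b i ≤ -2 := by omega
      nlinarith
    omega
  set P := Finset.univ.filter fun i => b i = 1 with hP
  set Q := Finset.univ.filter fun i => b i = -1 with hQ
  have hPm : ∀ i, i ∈ P ↔ b i = 1 := fun i => by simp [hP]
  have hQm : ∀ i, i ∈ Q ↔ b i = -1 := fun i => by simp [hQ]
  have hcard : 3 * P.card + Q.card = 5 := by
    have e : ∀ i, f i = 3 * (if i ∈ P then 1 else 0) + (if i ∈ Q then 1 else 0) := by
      intro i
      rw [hf]
      simp only [hPm, hQm]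
      rcases h3 i with h | h | h <;> rw [h] <;> norm_num
    rw [Finset.sum_congr rfl fun i _ => e i, Finset.sum_add_distrib, ← Finset.mul_sum, Finset.sum_ite_mem,
      Finset.sum_ite_mem, Finset.univ_inter, Finset.univ_inter, Finset.sum_const, Finset.sum_const] at hS
    simp at hS
    exact_mod_cast hS
  have hv0 : ∀ i, i ∉ P → i ∉ Q → (v : GolayPt → ℤ) i = 1 := by
    intro i h1 h2
    rw [hPm] at h1
    rw [hQm] at h2
    rw [hb i]
    rcases h3 i with h | h | h
    · rw [h]; norm_num
    · exact absurd h h1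
    · exact absurd h h2
  have hv1 : ∀ i ∈ P, (v : GolayPt → ℤ) i = 5 := fun i hi => by rw [hb i, (hPm i).1 hi]; norm_num
  have hv2 : ∀ i ∈ Q, (v : GolayPt → ℤ) i = -3 := fun i hi => by rw [hb i, (hQm i).1 hi]; norm_num
  have hcase : (P.card = 1 ∧ Q.card = 2) ∨ (P.card = 0 ∧ Q.card = 5) := by omega
  rcases hcase with ⟨hP1, hQ2⟩ | ⟨hP0, hQ5⟩
  · obtain ⟨p, hp⟩ := Finset.card_eq_one.1 hP1
    obtain ⟨q, r, hqr, hq⟩ := Finset.card_eq_two.1 hQ2
    have hpP : p ∈ P := by rw [hp]; simp
    have hqQ : q ∈ Q := by rw [hq]; simp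
    have hrQ : r ∈ Q := by rw [hq]; simp
    have hdis : ∀ i ∈ P, i ∉ Q := by
      intro i h1 h2
      rw [hPm] at h1
      rw [hQm] at h2
      omega
    refine good_odd (p := p) (q := q) (r := r) (fun h => hdis p hpP (h ▸ hqQ)) (fun h => hdis p hpP (h ▸ hrQ)) hqr
      (hv1 p hpP) (hv2 q hqQ) (hv2 r hrQ) (fun i h1 h2 h4 => hv0 i ?_ ?_)
    · rw [hp, Finset.mem_singleton]; exact h1
    · rw [hq]; simp [h2, h4]
  · have hPe : P = ∅ := Finset.card_eq_zero.1 hP0
    have hPn : ∀ i, i ∉ P := fun i => by rw [hPe]; simp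
    obtain ⟨O, ⟨hO, hQO⟩, -⟩ := steiner.2 Q hQ5
    have hO8 : O.card = 8 := hO.2
    have hd3 : (O \ Q).card = 3 := by rw [Finset.card_sdiff_of_subset hQO, hO8, hQ5]
    obtain ⟨x, y, z, hxy, hxz, hyz, hxyz⟩ := Finset.card_eq_three.1 hd3
    have hmem : ∀ i, i ∈ O \ Q ↔ i = x ∨ i = y ∨ i = z := fun i => by rw [hxyz]; simp
    have hx := Finset.mem_sdiff.1 ((hmem x).2 (Or.inl rfl))
    have hy := Finset.mem_sdiff.1 ((hmem y).2 (Or.inr (Or.inl rfl)))
    have hz := Finset.mem_sdiff.1 ((hmem z).2 (Or.inr (Or.inr rfl)))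
    obtain ⟨s, -, hs'⟩ := exists_sign hO.1
    have hcoe : ∀ i : GolayPt, ((-(v - 2 • (s • lam x)) : leechLattice) : GolayPt → ℤ) i =
        2 * (if i ∈ O then -(lam x : GolayPt → ℤ) i else (lam x : GolayPt → ℤ) i) - (v : GolayPt → ℤ) i := by
      intro i
      rw [two_smul, AddSubgroup.coe_neg, AddSubgroup.coe_sub, AddSubgroup.coe_add, Pi.neg_apply, Pi.sub_apply,
        Pi.add_apply, hs']
      ring
    have hcong : Cong v (-(v - 2 • (s • lam x))) := by
      refine Cong.trans ⟨s • lam x, ?_⟩ (Cong.symm (cong_neg (v - 2 • (s • lam x))))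
      abel
    refine Good.of_cong hcong (good_odd (p := x) (q := y) (r := z) hxy hxz hyz ?_ ?_ ?_ fun i hix hiy hiz => ?_)
    · rw [hcoe, if_pos hx.1, lam_self, hv0 x (hPn x) hx.2]; norm_num
    · rw [hcoe, if_pos hy.1, lam_ne (Ne.symm hxy), hv0 y (hPn y) hy.2]; norm_num
    · rw [hcoe, if_pos hz.1, lam_ne (Ne.symm hxz), hv0 z (hPn z) hz.2]; norm_num
    · rw [hcoe, lam_ne hix]
      by_cases hiO : i ∈ O
      · have hiQ : i ∈ Q := by
          by_contra h
          rcases (hmem i).1 (Finset.mem_sdiff.2 ⟨hiO, h⟩) with h | h | h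
          · exact hix h
          · exact hiy h
          · exact hiz h
        rw [if_pos hiO, hv2 i hiQ]; norm_num
      · have hiQ : i ∉ Q := fun h => hiO (hQO h)
        rw [if_neg hiO, hv0 i (hPn i) hiQ]; norm_num

/-- **All the vectors of norm `64` are good.** -/
theorem good_all (v : leechLattice) (hn : sqNorm (v : GolayPt → ℤ) = 64) : Good v := by
  rcases isLeech_zero_or_one v.2 with h | h
  · exact good_even h hn
  · obtain ⟨A, hA, a, ha, -⟩ := exists_form h (Or.inr rfl)
    obtain ⟨s, hs, hs'⟩ := exists_sign hA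
    apply Good.of_smul hs
    refine good_one (b := fun i => if i ∈ A then -1 - a i else a i) (fun i => ?_) (by rw [sqNorm_smul, hn])
    rw [hs', ha i]
    unfold chi
    by_cases hi : i ∈ A
    · simp only [if_pos hi]; ring
    · simp only [if_neg hi]; ring

end Cfsg.Agent.H995.Co1F
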